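import Cfsg.Agent.H110.PrimeAbs
import Cfsg.Agent.H110.Glue
import Cfsg.Agent.H111.Pres
import Cfsg.Agent.H110.Track

/-!
# `Alt (p + 2)` has a presentation with 2 generators and 4 relators, `p` an odd prime (helper110, helper173)
-/

set_option autoImplicit false

namespace Cfsg.Agent.H110.Prime

open Equiv Equiv.Perm
open Cfsg.Agent.StdAlt.PermTypes (cyc cyc_conj cyc_inv cyc_rot cyc_mem_alt cyc_pow_three)
open Cfsg.Agent.H110.PrimeAbs
open Cfsg.Agent.H111 Cfsg.Agent.H173.Pres Cfsg.Agent.H110.Track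

variable {p : ℕ} [hp : Fact p.Prime]

/-- translation -/
def trP (p : ℕ) (a : ZMod p) : Perm (ZMod p ⊕ Bool) := Equiv.Perm.sumCongr (Equiv.addRight a) (Equiv.refl _)

/-- multiplication, exchanging the two extra points -/
def muP (r : (ZMod p)ˣ) : Perm (ZMod p ⊕ Bool) := Equiv.Perm.sumCongr (Units.mulLeft r) (swap false true)

theorem trP_inl (a i : ZMod p) : trP p a (Sum.inl i) = Sum.inl (i + a) := rfl
theorem trP_inr (a : ZMod p) (b : Bool) : trP p a (Sum.inr b) = Sum.inr b := rfl
theorem muP_inl (r : (ZMod p)ˣ) (i : ZMod p) : muP r (Sum.inl i) = Sum.inl (r * i) := rfl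
theorem muP_inr (r : (ZMod p)ˣ) (b : Bool) : muP r (Sum.inr b) = Sum.inr (swap false true b) := rfl

theorem trP_pow (a : ZMod p) (k : ℕ) : trP p a ^ k = trP p (k * a) := by
  induction k with
  | zero =>
    rw [pow_zero]
    ext x : 1
    rcases x with x | x
    · rw [trP_inl]; simp
    · rw [trP_inr]; simp
  | succ k ih =>
    rw [pow_succ, ih]
    ext x : 1
    rcases x with x | x
    · rw [mul_apply, trP_inl, trP_inl, trP_inl]
      push_cast
      congr 1; ring
    · rw [mul_apply, trP_inr, trP_inr, trP_inr]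

theorem trP_p (a : ZMod p) : trP p a ^ p = 1 := by
  rw [trP_pow, CharP.cast_eq_zero, zero_mul]
  have := trP_pow (p := p) a 0
  rw [pow_zero, Nat.cast_zero, zero_mul] at this
  exact this.symm

theorem sign_trP (hp2 : p ≠ 2) (a : ZMod p) : sign (trP p a) = 1 := by
  have h1 : (sign (trP p a)) ^ p = 1 := by rw [← map_pow, trP_p, map_one]
  rcases Int.units_eq_one_or (sign (trP p a)) with h | h
  · exact h
  · rw [h, (hp.out.eq_two_or_odd'.resolve_left hp2).neg_one_pow] at h1
    exact absurd h1 (by decide)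

theorem mulLeft_pow (r : (ZMod p)ˣ) (k : ℕ) (x : ZMod p) : ((Units.mulLeft r) ^ k) x = (r : ZMod p) ^ k * x := by
  induction k with
  | zero => simp
  | succ k ih =>
    rw [pow_succ', mul_apply, ih]
    change (r : ZMod p) * _ = _
    rw [pow_succ']; ring

theorem sign_mulLeft (hp2 : p ≠ 2) {r : (ZMod p)ˣ} (hr : ∀ x : (ZMod p)ˣ, x ∈ Subgroup.zpowers r) :
    sign (Units.mulLeft r : Perm (ZMod p)) = -1 := by
  have h2 : 2 < p := lt_of_le_of_ne hp.out.two_le (Ne.symm hp2)
  have hr1 : (r : ZMod p) ≠ 1 := by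
    intro h1
    have h3 : r = 1 := Units.ext h1
    have h4 : ∀ x : (ZMod p)ˣ, x = 1 := by
      intro x
      have := hr x
      rw [h3, Subgroup.zpowers_one_eq_bot, Subgroup.mem_bot] at this
      exact this
    have h5 : Fintype.card (ZMod p)ˣ = 1 := Fintype.card_eq_one_iff.2 ⟨1, h4⟩
    rw [ZMod.card_units_eq_totient, Nat.totient_prime hp.out] at h5
    omega
  have hcyc : IsCycle (Units.mulLeft r : Perm (ZMod p)) := by
    refine ⟨1, by simpa using hr1, fun y hy => ?_⟩
    have hy0 : y ≠ 0 := by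
      rintro rfl
      apply hy; simp
    obtain ⟨k, hk⟩ := (mem_powers_iff_mem_zpowers).2 (hr (Units.mk0 y hy0))
    refine ⟨k, ?_⟩
    rw [zpow_natCast, mulLeft_pow, mul_one]
    have := congrArg Units.val hk
    simpa using this
  have hsupp : (Units.mulLeft r : Perm (ZMod p)).support = Finset.univ.erase 0 := by
    ext x
    rw [mem_support, Finset.mem_erase]
    constructor
    · intro hx
      refine ⟨?_, Finset.mem_univ _⟩
      rintro rfl
      apply hx; simp
    · rintro ⟨hx, -⟩ h3
      apply hr1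
      change (r : ZMod p) * x = x at h3
      exact mul_eq_right₀ hx |>.1 h3
  rw [hcyc.sign, hsupp, Finset.card_erase_of_mem (Finset.mem_univ _), Finset.card_univ, ZMod.card,
    (hp.out.even_sub_one hp2).neg_one_pow]

theorem sign_muP (hp2 : p ≠ 2) {r : (ZMod p)ˣ} (hr : ∀ x : (ZMod p)ˣ, x ∈ Subgroup.zpowers r) :
    sign (muP r) = 1 := by
  unfold muP
  rw [sign_sumCongr, sign_mulLeft hp2 hr, sign_swap (by simp)]
  simp

theorem muP_pow_apply_inl (r : (ZMod p)ˣ) (k : ℕ) (i : ZMod p) :
    (muP r ^ k) (Sum.inl i) = Sum.inl ((r : ZMod p) ^ k * i) := by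
  induction k with
  | zero => simp
  | succ k ih => rw [pow_succ', mul_apply, ih, muP_inl, pow_succ', mul_assoc]

theorem muP_pow_apply_inr (r : (ZMod p)ˣ) (k : ℕ) (b : Bool) :
    (muP r ^ (2 * k)) (Sum.inr b) = Sum.inr b := by
  rw [pow_mul]
  induction k with
  | zero => simp
  | succ k ih =>
    rw [pow_succ', mul_apply, ih, pow_two, mul_apply, muP_inr, muP_inr]
    cases b <;> rfl

theorem muP_p (hp2 : p ≠ 2) (r : (ZMod p)ˣ) : muP r ^ (p - 1) = 1 := by
  obtain ⟨k, hk⟩ := hp.out.even_sub_one hp2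
  ext x : 1
  rcases x with x | x
  · rw [muP_pow_apply_inl]
    have : (r : ZMod p) ^ (p - 1) = 1 := ZMod.pow_card_sub_one_eq_one r.ne_zero
    rw [this, one_mul]; rfl
  · rw [hk, ← two_mul, muP_pow_apply_inr]; rfl

theorem mu_tr (r : (ZMod p)ˣ) (a : ZMod p) : muP r * trP p a * (muP r)⁻¹ = trP p (r * a) := by
  rw [mul_inv_eq_iff_eq_mul]
  ext x : 1
  rcases x with x | x
  · rw [mul_apply, mul_apply, trP_inl, muP_inl, muP_inl, trP_inl, mul_add]
  · rw [mul_apply, mul_apply, trP_inr, muP_inr, trP_inr]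

/-- the 3-cycle -/
def cy (i : ZMod p) : alternatingGroup (ZMod p ⊕ Bool) :=
  ⟨cyc (Sum.inl i) (Sum.inr false) (Sum.inr true), cyc_mem_alt (by simp) (by simp)⟩

theorem eq_top_of_cy (H : Subgroup (alternatingGroup (ZMod p ⊕ Bool))) (h : ∀ i, cy i ∈ H) : H = ⊤ := by
  refine Cfsg.Agent.StdAlt.Carm.eq_top_of_cyc (Ω := ZMod p ⊕ Bool) (c := Sum.inr false) (d := Sum.inr true) (by simp)
    (by
      have := hp.out.two_le
      simp only [Fintype.card_sum, ZMod.card, Fintype.card_bool]
      omega) H ?_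
  rintro σ (i | b) h1 h2 hσ
  · have : σ = cy i := Subtype.ext hσ
    rw [this]; exact h _
  · cases b <;> simp at h1 h2

/-- **Two generators and four relators.** -/
theorem alt_zmod_on (hp2 : p ≠ 2) : ∃ T : alternatingGroup (ZMod p ⊕ Bool), PresOn ![T, cy 0] 4 := by
  classical
  have h2 : 2 < p := lt_of_le_of_ne hp.out.two_le (Ne.symm hp2)
  obtain ⟨r, hr⟩ := IsCyclic.exists_generator (α := (ZMod p)ˣ)
  have hr1 : (r : ZMod p) ≠ 1 := by
    intro h1
    have h3 : r = 1 := Units.ext h1
    have h4 : ∀ x : (ZMod p)ˣ, x = 1 := by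
      intro x
      have := hr x
      rw [h3, Subgroup.zpowers_one_eq_bot, Subgroup.mem_bot] at this
      exact this
    have h5 : Fintype.card (ZMod p)ˣ = 1 := Fintype.card_eq_one_iff.2 ⟨1, h4⟩
    rw [ZMod.card_units_eq_totient, Nat.totient_prime hp.out] at h5
    omega
  have hr2 : (1 : ZMod p) - r ≠ 0 := sub_ne_zero.2 hr1.symm
  let s : ℕ := ((1 - (r : ZMod p))⁻¹).val
  have hs : (s : ZMod p) * (1 - r) = 1 := by
    simp only [s]
    rw [ZMod.natCast_val, ZMod.cast_id', id, inv_mul_cancel₀ hr2]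
  have hs1 : 1 ≤ s := by
    rw [Nat.one_le_iff_ne_zero]
    intro h0
    rw [h0, Nat.cast_zero, zero_mul] at hs
    exact zero_ne_one hs
  let T : alternatingGroup (ZMod p ⊕ Bool) := ⟨trP p 1, mem_alternatingGroup.2 (sign_trP hp2 1)⟩
  let Z : alternatingGroup (ZMod p ⊕ Bool) := cy 0
  let M : alternatingGroup (ZMod p ⊕ Bool) := ⟨muP r, mem_alternatingGroup.2 (sign_muP hp2 hr)⟩
  have hTk : ∀ k : ℕ, T ^ k = ⟨trP p k, mem_alternatingGroup.2 (sign_trP hp2 _)⟩ := by
    intro k
    apply Subtype.ext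
    rw [Subgroup.coe_pow]
    change trP p 1 ^ k = trP p k
    rw [trP_pow, mul_one]
  have hTZ : ∀ i : ZMod p, T ^ i.val * Z * (T ^ i.val)⁻¹ = cy i := by
    intro i
    rw [hTk]
    apply Subtype.ext
    rw [Subgroup.coe_mul, Subgroup.coe_mul, Subgroup.coe_inv]
    change trP p _ * cyc _ _ _ * (trP p _)⁻¹ = cyc _ _ _
    rw [cyc_conj, trP_inl, trP_inr, trP_inr, ZMod.natCast_val, ZMod.cast_id', id, zero_add]
  let f : FreeGroup (Fin 2) →* alternatingGroup (ZMod p ⊕ Bool) := FreeGroup.lift ![T, Z]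
  have hf0 : f (FreeGroup.of 0) = T := by simp [f]
  have hf1 : f (FreeGroup.of 1) = Z := by simp [f]
  have hf : Function.Surjective f := by
    rw [← MonoidHom.range_eq_top]
    apply eq_top_of_cy
    intro i
    rw [← hTZ, ← hf0, ← hf1, ← map_pow, ← map_inv, ← map_mul, ← map_mul]
    exact ⟨_, rfl⟩
  have hN : (Subgroup.normalClosure {(FreeGroup.of 1 : FreeGroup (Fin 2))}).map f = ⊤ := by
    apply eq_top_of_cy
    intro i
    rw [← hTZ, ← hf0, ← hf1, ← map_pow, ← map_inv, ← map_mul, ← map_mul]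
    exact ⟨_, Subgroup.normalClosure_normal.conj_mem _
      (Subgroup.subset_normalClosure (Set.mem_singleton _)) _, rfl⟩
  have hM : M ∈ (Subgroup.normalClosure {(FreeGroup.of 1 : FreeGroup (Fin 2))}).map f := by
    rw [hN]; exact Subgroup.mem_top _
  obtain ⟨w, hw, hwM⟩ := hM
  let t : FreeGroup (Fin 2) := FreeGroup.of 0
  let z : FreeGroup (Fin 2) := FreeGroup.of 1
  let R : List (FreeGroup (Fin 2)) := [w * t ^ s * w⁻¹ * (t ^ (s - 1))⁻¹, t ^ p * (w ^ (p - 1))⁻¹,
    w * z * w⁻¹ * (z ^ 2)⁻¹, z ^ 3 * ((z * (t * z * t⁻¹)) ^ 2)⁻¹]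
  have hZ3 : Z ^ 3 = 1 := by
    apply Subtype.ext
    rw [Subgroup.coe_pow]
    exact cyc_pow_three (by simp) (by simp) (by simp)
  have hQ : f.ker = Subgroup.normalClosure {r | r ∈ R} := by
    refine ker_of_inj f R ?_ ?_
    · intro x hx
      simp only [R, List.mem_cons, List.not_mem_nil, or_false] at hx
      rcases hx with rfl | rfl | rfl | rfl
      · rw [map_mul, map_mul, map_mul, map_pow, map_inv, map_inv, map_pow, hwM, hf0, mul_inv_eq_one, hTk, hTk]
        apply Subtype.ext
        rw [Subgroup.coe_mul, Subgroup.coe_mul, Subgroup.coe_inv]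
        change muP r * trP p _ * (muP r)⁻¹ = trP p _
        rw [mu_tr]
        congr 1
        rw [Nat.cast_sub hs1, Nat.cast_one]
        linear_combination (-1 : ZMod p) * hs
      · rw [map_mul, map_pow, map_inv, map_pow, hwM, hf0, mul_inv_eq_one]
        apply Subtype.ext
        rw [Subgroup.coe_pow, Subgroup.coe_pow]
        change trP p 1 ^ p = muP r ^ (p - 1)
        rw [trP_p, muP_p hp2]
      · rw [map_mul, map_mul, map_mul, map_inv, map_inv, map_pow, hwM, hf1, mul_inv_eq_one]
        have h5 : Z ^ 2 = Z⁻¹ := by rw [eq_inv_iff_mul_eq_one, ← pow_succ, hZ3]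
        rw [h5]
        apply Subtype.ext
        rw [Subgroup.coe_mul, Subgroup.coe_mul, Subgroup.coe_inv, Subgroup.coe_inv]
        change muP r * cyc _ _ _ * (muP r)⁻¹ = (cyc _ _ _)⁻¹
        rw [cyc_conj, muP_inl, muP_inr, muP_inr, cyc_inv, mul_zero, swap_apply_left, swap_apply_right]
        exact cyc_rot (by simp) (by simp) (by simp)
      · rw [map_mul, map_pow, map_inv, map_pow, map_mul, map_mul, map_mul, map_inv, hf0, hf1, hZ3, one_mul,
          inv_eq_one]
        have h5 := hTZ 1
        have h6 : (1 : ZMod p).val = 1 := ZMod.val_one p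
        rw [h6, pow_one] at h5
        rw [h5]
        apply Subtype.ext
        rw [Subgroup.coe_pow, Subgroup.coe_mul]
        exact Cfsg.Agent.H110.Glue.cyc_sq (by simp) (by simp) (by simp) (by simp) (by simp) (by simp)
    · intro φ θ hφ hθ hR
      have e1 := hR _ (List.mem_cons_self)
      have e2 := hR _ (List.mem_cons_of_mem _ (List.mem_cons_self))
      have e3 := hR _ (List.mem_cons_of_mem _ (List.mem_cons_of_mem _ (List.mem_cons_self)))
      have e4 := hR _ (List.mem_cons_of_mem _ (List.mem_cons_of_mem _ (List.mem_cons_of_mem _ (List.mem_cons_self))))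
      rw [map_mul, map_mul, map_mul, map_pow, map_inv, map_inv, map_pow, mul_inv_eq_one] at e1
      rw [map_mul, map_pow, map_inv, map_pow, mul_inv_eq_one] at e2
      rw [map_mul, map_mul, map_mul, map_inv, map_inv, map_pow, mul_inv_eq_one] at e3
      rw [map_mul, map_pow, map_inv, map_pow, map_mul, map_mul, map_mul, map_inv, mul_inv_eq_one] at e4
      have hrel : Rel r s (φ t) (φ z) (φ w) := by
        refine ⟨e1, e2, e3, e4, ?_, ?_, hs1, hs, hr⟩
        · have h5 : Subgroup.normalClosure {z} ≤ (Subgroup.normalClosure {φ z}).comap φ := by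
            apply Subgroup.normalClosure_le_normal
            rw [Set.singleton_subset_iff]
            exact Subgroup.subset_normalClosure (Set.mem_singleton _)
          exact h5 hw
        · rw [eq_top_iff]
          rintro g -
          obtain ⟨x, rfl⟩ := hφ g
          induction x using FreeGroup.induction_on with
          | C1 => rw [map_one]; exact one_mem _
          | of i =>
            apply Subgroup.subset_closure
            fin_cases i
            · exact Or.inl rfl
            · exact Or.inr rfl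
          | inv_of i h => rw [map_inv]; exact inv_mem h
          | mul y z hy hz => rw [map_mul]; exact mul_mem hy hz
      obtain ⟨Φ, hΦ⟩ := hrel.exists_hom
      have hsu : Function.Surjective (θ.comp Φ) := by
        have : Function.Surjective θ := by
          intro y
          obtain ⟨x, hx⟩ := hf y
          exact ⟨φ x, by rw [hθ, hx]⟩
        exact this.comp hΦ
      have hi : Function.Injective (θ.comp Φ) := Finite.injective_iff_surjective.2 hsu
      intro x y hxy
      obtain ⟨x', rfl⟩ := hΦ x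
      obtain ⟨y', rfl⟩ := hΦ y
      rw [hi hxy]
  exact ⟨T, presOn_of_ker _ hf R hQ⟩

theorem alt_zmod (hp2 : p ≠ 2) : HasPres (alternatingGroup (ZMod p ⊕ Bool)) 2 4 := by
  obtain ⟨T, hT⟩ := alt_zmod_on hp2
  exact hT.hasPres

end Cfsg.Agent.H110.Prime
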