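import Cfsg.Agent.H110.GluePres
import Cfsg.Agent.H110.Prime
import Cfsg.Agent.H173.TwoGen
import Cfsg.Agent.H173.PresSix
import Cfsg.Agent.H363.TwoPrimes

/-!
# Short presentations of the alternating and symmetric groups (helper110, helper173, helper363; S2284, S2285, S2297)

* `hasPres_alt`, `hasPres_perm` : `Alt (Fin n)`, `Sym (Fin n)`, 3 generators, 7 relators, for all `n`;
* `hasPres_alt_two`, `hasPres_perm_two` : 2 generators, 8 relators, for all `n`;
* `presOn_pair_alt`, `presOn_pair_perm` : every generating pair, 9 relators.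
-/

set_option autoImplicit false

namespace Cfsg.Agent.H110.AltPres

open Equiv Equiv.Perm
open Cfsg.Agent.H110.Perms Cfsg.Agent.H110.Glue Cfsg.Agent.H110.GluePres
open Cfsg.Agent.H111 Cfsg.Agent.H173.Pres Cfsg.Agent.H110.Track

/-- a suitable prime -/
theorem exists_prime {N : ℕ} (hN : 5 ≤ N) : ∃ p : ℕ, p.Prime ∧ p ≠ 2 ∧ p ≤ N ∧ N + 3 ≤ 2 * p := by
  rcases Nat.lt_or_ge N 12 with h | h
  · interval_cases N
    · exact ⟨5, by norm_num, by norm_num, by norm_num, by norm_num⟩
    · exact ⟨5, by norm_num, by norm_num, by norm_num, by norm_num⟩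
    · exact ⟨5, by norm_num, by norm_num, by norm_num, by norm_num⟩
    · exact ⟨7, by norm_num, by norm_num, by norm_num, by norm_num⟩
    · exact ⟨7, by norm_num, by norm_num, by norm_num, by norm_num⟩
    · exact ⟨7, by norm_num, by norm_num, by norm_num, by norm_num⟩
    · exact ⟨7, by norm_num, by norm_num, by norm_num, by norm_num⟩
  · obtain ⟨r, s, hr, hs, h1, h2, h3⟩ := Cfsg.Agent.H363.TwoPrimes.exists_two_primes (N / 2) (by omega)
    exact ⟨s, hs, by omega, by omega, by omega⟩

/-- two generators -/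
theorem two_gen_alt {W : ℕ} (hW : 1 ≤ W) : ∃ a b : alternatingGroup (Pt W), Subgroup.closure {a, b} = ⊤ := by
  obtain ⟨t, ht⟩ := Cfsg.Agent.H173.TwoGen.exists_isThreeCycle (α := Pt W) (by simp; omega)
  obtain ⟨g, hg⟩ := Cfsg.Agent.H173.TwoGen.exists_alt (⟨t, ht.mem_alternatingGroup⟩ : alternatingGroup (Pt W)) ht
  exact ⟨_, g, hg⟩

section transport

open Cfsg.Agent.StdAlt.PermTypes (cyc isThreeCycle_cyc exists_eq_cyc)

theorem map_isThreeCycle {α β : Type*} [DecidableEq α] [Fintype α] [DecidableEq β] [Fintype β] (e : α ≃ β)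
    {t : Perm α} (ht : t.IsThreeCycle) : (e.permCongrHom t).IsThreeCycle := by
  obtain ⟨i, j, k, hij, hjk, hik, rfl⟩ := exists_eq_cyc ht
  have h1 : ∀ a b : α, e.permCongrHom (swap a b) = swap (e a) (e b) := fun a b =>
    Equiv.symm_trans_swap_trans a b e
  have : e.permCongrHom (cyc i j k) = cyc (e i) (e j) (e k) := by
    unfold cyc
    rw [map_mul, h1, h1]
  rw [this]
  exact isThreeCycle_cyc (by simpa) (by simpa) (by simpa)

theorem ext_isThreeCycle {W N : ℕ} (h : W ≤ N) {t : Perm (Pt W)} (ht : t.IsThreeCycle) :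
    (ext h t).IsThreeCycle := by
  obtain ⟨i, j, k, hij, hjk, hik, rfl⟩ := exists_eq_cyc ht
  rw [ext_cyc]
  exact isThreeCycle_cyc (by simpa) (by simpa) (by simpa)

end transport

/-- the equivalence -/
noncomputable def ptEquiv (N : ℕ) : Pt N ≃ Fin (N + 2) :=
  (Equiv.sumCongr (Equiv.refl _) (Fintype.equivFinOfCardEq (by simp))).trans finSumFinEquiv

theorem alt_prime {p : ℕ} (hp : p.Prime) (hp2 : p ≠ 2) :
    ∃ g : Fin 2 → alternatingGroup (Pt p), PresOn g 4 ∧ ((g 1 : alternatingGroup (Pt p)) : Perm (Pt p)).IsThreeCycle := by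
  have : Fact p.Prime := ⟨hp⟩
  obtain ⟨T, hT⟩ := Cfsg.Agent.H110.Prime.alt_zmod_on hp2
  have e : ZMod p ⊕ Bool ≃ Pt p := Equiv.sumCongr (Fintype.equivFinOfCardEq (ZMod.card p)) (Equiv.refl _)
  refine ⟨_, hT.map e.altCongrHom, ?_⟩
  change (e.permCongrHom _).IsThreeCycle
  apply map_isThreeCycle
  exact Cfsg.Agent.StdAlt.PermTypes.isThreeCycle_cyc (by simp) (by simp) (by simp)

theorem kap_conj_mem {p : ℕ} (x : alternatingGroup (Pt p)) :
    kap p * (alternatingGroup (Pt p)).subtype x * (kap p)⁻¹ ∈ (alternatingGroup (Pt p)).subtype.range := by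
  rw [Subgroup.range_subtype, mem_alternatingGroup, map_mul, map_mul, Subgroup.coe_subtype,
    mem_alternatingGroup.1 x.2, mul_one, map_inv, mul_inv_cancel]

theorem alt_main {N : ℕ} (hN : 5 ≤ N) :
    ∃ g : Fin 2 ⊕ Fin 1 → alternatingGroup (Pt N), PresOn g 7 ∧
      ((g (Sum.inl 1) : alternatingGroup (Pt N)) : Perm (Pt N)).IsThreeCycle := by
  obtain ⟨p, hp, hp2, h1, h2⟩ := exists_prime hN
  obtain ⟨g, hg, hg1⟩ := alt_prime hp hp2
  rcases h1.lt_or_eq with h | rfl
  · refine ⟨_, alt_on h h2 hg (two_gen_alt (by omega)), ?_⟩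
    exact ext_isThreeCycle _ hg1
  · have h3 := presOn_coprod hg (presOn_free (Fin 1))
    have h4 := presOn_quo h3 (Monoid.Coprod.lift (MonoidHom.id _) 1) (fun x => ⟨Monoid.Coprod.inl x, by simp⟩)
      [Monoid.Coprod.inr (FreeGroup.of 0)] (by
        apply ker_of_inj
        · intro r hr
          rw [List.mem_singleton] at hr
          subst hr; simp
        · intro φ θ hφ hθ hR
          have h5 := hR _ (List.mem_singleton.2 rfl)
          have e : (φ.comp Monoid.Coprod.inl).comp (θ.comp φ) = φ := by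
            apply Monoid.Coprod.hom_ext
            · ext y; simp [hθ]
            · ext y
              have : y = 0 := Subsingleton.elim _ _
              subst this
              simp [hθ, h5]
          intro x y hxy
          obtain ⟨x', rfl⟩ := hφ x
          obtain ⟨y', rfl⟩ := hφ y
          have h6 := DFunLike.congr_fun e x'
          have h7 := DFunLike.congr_fun e y'
          rw [← h6, ← h7]
          simp only [MonoidHom.comp_apply]
          rw [hxy])
    refine ⟨_, h4.mono (by simp), ?_⟩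
    simpa using hg1

theorem sym_main {N : ℕ} (hN : 5 ≤ N) :
    ∃ g : Fin 2 ⊕ Fin 1 → Perm (Pt N), PresOn g 7 ∧ (g (Sum.inl 1)).IsThreeCycle := by
  obtain ⟨p, hp, hp2, h1, h2⟩ := exists_prime hN
  obtain ⟨g, hg, hg1⟩ := alt_prime hp hp2
  rcases h1.lt_or_eq with h | rfl
  · refine ⟨_, sym_on h h2 hg (two_gen_alt (by omega)), ?_⟩
    exact ext_isThreeCycle _ hg1
  · refine ⟨_, cyclic_ext hg (alternatingGroup (Pt p)).subtype (Subgroup.subtype_injective _) (kap p) ?_
      (two_gen_alt (by omega)) kap_conj_mem (n := 2) (by norm_num) ?_ ?_, ?_⟩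
    · rw [Subgroup.range_subtype, eq_top_iff]
      intro σ _
      rcases Int.units_eq_one_or (sign σ) with h3 | h3
      · exact Subgroup.mem_sup_left (mem_alternatingGroup.2 h3)
      · have h4 : σ * kap p ∈ alternatingGroup (Pt p) := by
          rw [mem_alternatingGroup, map_mul, h3, sign_kap]
          simp
        have h5 := mul_mem (Subgroup.mem_sup_left h4 : σ * kap p ∈ alternatingGroup (Pt p) ⊔ Subgroup.zpowers (kap p))
          (Subgroup.mem_sup_right (Subgroup.mem_zpowers (kap p)))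
        rwa [mul_assoc, kap_sq, mul_one] at h5
    · rw [pow_two, kap_sq]; exact one_mem _
    · intro j hj1 hj2
      have : j = 1 := by omega
      subst this
      rw [pow_one, Subgroup.range_subtype, mem_alternatingGroup, sign_kap]
      decide
    · exact hg1

section final

variable (n : ℕ)

theorem alt_tr (hn : 7 ≤ n) : ∃ g : Fin 2 ⊕ Fin 1 → alternatingGroup (Fin n), PresOn g 7 ∧
      ((g (Sum.inl 1) : alternatingGroup (Fin n)) : Perm (Fin n)).IsThreeCycle := by
  obtain ⟨N, rfl⟩ : ∃ N, n = N + 2 := ⟨n - 2, by omega⟩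
  obtain ⟨g, hg, h⟩ := alt_main (N := N) (by omega)
  refine ⟨_, hg.map (ptEquiv N).altCongrHom, ?_⟩
  exact map_isThreeCycle _ h

theorem perm_tr (hn : 7 ≤ n) : ∃ g : Fin 2 ⊕ Fin 1 → Perm (Fin n), PresOn g 7 ∧ (g (Sum.inl 1)).IsThreeCycle := by
  obtain ⟨N, rfl⟩ : ∃ N, n = N + 2 := ⟨n - 2, by omega⟩
  obtain ⟨g, hg, h⟩ := sym_main (N := N) (by omega)
  refine ⟨_, hg.map (ptEquiv N).permCongrHom, ?_⟩
  exact map_isThreeCycle _ h

/-- **Alternating groups, 3 generators, 7 relators.** -/
theorem hasPres_alt : HasPres (alternatingGroup (Fin n)) 3 7 := by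
  rcases Nat.lt_or_ge 6 n with h | h
  · obtain ⟨g, hg, -⟩ := alt_tr n h
    exact hasPres_succ_of_presOn hg
  · exact hasPres_three_alt n h

/-- **Symmetric groups, 3 generators, 7 relators.** -/
theorem hasPres_perm : HasPres (Perm (Fin n)) 3 7 := by
  rcases Nat.lt_or_ge 6 n with h | h
  · obtain ⟨g, hg, -⟩ := perm_tr n h
    exact hasPres_succ_of_presOn hg
  · exact hasPres_three_perm n h

/-- **Alternating groups, 2 generators, 8 relators.** -/
theorem hasPres_alt_two : HasPres (alternatingGroup (Fin n)) 2 8 := by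
  rcases Nat.lt_or_ge 6 n with h | h
  · obtain ⟨g, hg, ht⟩ := alt_tr n h
    obtain ⟨b, hb⟩ := Cfsg.Agent.H173.TwoGen.exists_alt _ ht
    exact hasPres_two_of_shared hg _ b hb
  · exact (hasPres_two_alt n h).mono (by norm_num)

/-- **Symmetric groups, 2 generators, 8 relators.** -/
theorem hasPres_perm_two : HasPres (Perm (Fin n)) 2 8 := by
  rcases Nat.lt_or_ge 6 n with h | h
  · obtain ⟨g, hg, ht⟩ := perm_tr n h
    obtain ⟨b, hb⟩ := Cfsg.Agent.H173.TwoGen.exists_perm _ ht
    exact hasPres_two_of_shared hg _ b hb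
  · exact (hasPres_two_perm n h).mono (by norm_num)

end final

end Cfsg.Agent.H110.AltPres
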