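import Cfsg.Agent.H110.Chain

/-!
# Four relators for the alternating group of degree `p + 2`: the abstract argument (helper110, helper173)

`T, Z` generate `Γ`, `W` is in the normal closure of `Z`, `W T^s W⁻¹ = T^(s-1)`, `T^p = W^(p-1)`, `W Z W⁻¹ = Z²`,
`Z³ = (Z Z^T)²`. Then the conjugates `T^i Z T^(-i)` satisfy Carmichael's relations and generate `Γ`.
-/

set_option autoImplicit false

namespace Cfsg.Agent.H110.PrimeAbs

open Equiv Equiv.Perm
open Cfsg.Agent.StdAlt.PermTypes (cyc)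
open Cfsg.Agent.H110.Chain (sq_swap sq_e sq_conj commute_conj)

variable {p : ℕ} [hp : Fact p.Prime]

/-- The relations. -/
structure Rel {Γ : Type*} [Group Γ] (r : (ZMod p)ˣ) (s : ℕ) (T Z W : Γ) : Prop where
  one : W * T ^ s * W⁻¹ = T ^ (s - 1)
  two : T ^ p = W ^ (p - 1)
  three : W * Z * W⁻¹ = Z ^ 2
  four : Z ^ 3 = (Z * (T * Z * T⁻¹)) ^ 2
  mem : W ∈ Subgroup.normalClosure {Z}
  top : Subgroup.closure {T, Z} = ⊤
  s_pos : 1 ≤ s
  hs : (s : ZMod p) * (1 - r) = 1
  gen : ∀ x : (ZMod p)ˣ, x ∈ Subgroup.zpowers r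

/-- the conjugates of `Z` -/
def z {Γ : Type*} [Group Γ] (T Z : Γ) (i : ZMod p) : Γ := T ^ i.val * Z * (T ^ i.val)⁻¹

theorem pow_two_pow {Γ : Type*} [Group Γ] {g : Γ} (hg : g ^ 3 = 1) (k : ℕ) :
    g ^ (2 ^ k) = g ^ ((((-1) ^ k : ℤˣ)) : ℤ) := by
  induction k with
  | zero => simp
  | succ k ih =>
    have h1 : (g ^ (2 ^ k)) ^ 2 = (g ^ (2 ^ k))⁻¹ := by
      rw [eq_inv_iff_mul_eq_one, ← pow_succ, ← pow_mul, mul_comm, pow_mul, hg, one_pow]
    rw [pow_succ, pow_mul, h1, ih, pow_succ, ← zpow_neg]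
    simp

namespace Rel

variable {Γ : Type*} [Group Γ] {r : (ZMod p)ˣ} {s : ℕ} {T Z W : Γ} (h : Rel r s T Z W)

include h

theorem T_pow : T ^ p = 1 := by
  have h1 : (W * T ^ s * W⁻¹) ^ p = (T ^ (s - 1)) ^ p := by rw [h.one]
  have h2 : (W * T ^ s * W⁻¹) ^ p = (T ^ p) ^ s := by
    rw [conj_pow, ← pow_mul, mul_comm s p, pow_mul, h.two]
    have : Commute W ((W ^ (p - 1)) ^ s) := ((Commute.refl W).pow_right _).pow_right _
    rw [this.eq, mul_inv_cancel_right]
  rw [h2, ← pow_mul T (s - 1) p, mul_comm (s - 1) p, pow_mul] at h1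
  have h3 : (T ^ p) ^ s = (T ^ p) ^ (s - 1) * T ^ p := by
    rw [← pow_succ, Nat.sub_add_cancel h.s_pos]
  rw [h3] at h1
  exact mul_eq_left.1 h1

theorem T_congr {a b : ℕ} (hab : (a : ZMod p) = b) : T ^ a = T ^ b := by
  rw [ZMod.natCast_eq_natCast_iff] at hab
  rw [pow_eq_pow_iff_modEq]
  exact hab.of_dvd (orderOf_dvd_of_pow_eq_one h.T_pow)

theorem W_pow : W ^ (p - 1) = 1 := by rw [← h.two, h.T_pow]

theorem W_T : W * T * W⁻¹ = T ^ (r : ZMod p).val := by
  have h1 : T = (T ^ s) ^ (1 - (r : ZMod p)).val := by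
    rw [← pow_mul]
    conv_lhs => rw [← pow_one T]
    apply h.T_congr
    rw [Nat.cast_mul, ZMod.natCast_val, ZMod.cast_id', id, h.hs, Nat.cast_one]
  have h2 : W * T * W⁻¹ = (W * T ^ s * W⁻¹) ^ (1 - (r : ZMod p)).val := by
    rw [conj_pow, ← h1]
  rw [h2, h.one, ← pow_mul]
  apply h.T_congr
  rw [Nat.cast_mul, ZMod.natCast_val, ZMod.cast_id', id, Nat.cast_sub h.s_pos, Nat.cast_one, sub_mul, h.hs,
    ZMod.natCast_val, ZMod.cast_id', id]
  ring

theorem W_pow_T (k : ℕ) : W ^ k * T * (W ^ k)⁻¹ = T ^ ((r : ZMod p) ^ k).val := by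
  induction k with
  | zero =>
    rw [pow_zero, one_mul, inv_one, mul_one, pow_zero]
    conv_lhs => rw [← pow_one T]
    apply h.T_congr
    simp
  | succ k ih =>
    have h1 : W ^ (k + 1) * T * (W ^ (k + 1))⁻¹ = W ^ k * (W * T * W⁻¹) * (W ^ k)⁻¹ := by
      rw [pow_succ, mul_inv_rev]; group
    rw [h1, h.W_T, ← conj_pow, ih, ← pow_mul]
    apply h.T_congr
    rw [Nat.cast_mul, ZMod.natCast_val, ZMod.natCast_val, ZMod.natCast_val, ZMod.cast_id', id, id, id, pow_succ]

theorem W_pow_Z (k : ℕ) : W ^ k * Z * (W ^ k)⁻¹ = Z ^ (2 ^ k) := by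
  induction k with
  | zero => simp
  | succ k ih =>
    have h1 : W ^ (k + 1) * Z * (W ^ (k + 1))⁻¹ = W ^ k * (W * Z * W⁻¹) * (W ^ k)⁻¹ := by
      rw [pow_succ, mul_inv_rev]; group
    rw [h1, h.three, ← conj_pow, ih, ← pow_mul, pow_succ]

theorem Z_odd : Z ^ (2 ^ (p - 1) - 1) = 1 := by
  have h1 := h.W_pow_Z (p - 1)
  rw [h.W_pow, one_mul, inv_one, mul_one] at h1
  have h2 : Z ^ (2 ^ (p - 1)) = Z ^ (2 ^ (p - 1) - 1) * Z := by
    rw [← pow_succ, Nat.sub_add_cancel Nat.one_le_two_pow]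
  rw [h2] at h1
  exact right_eq_mul.1 h1

omit h in
/-- a root of the `2 ^ k`-th power -/
theorem exists_root (k : ℕ) : ∃ j : ℕ, ∀ g : Γ, g ^ (2 ^ (p - 1) - 1) = 1 → (g ^ (2 ^ k)) ^ j = g := by
  have hp2 : 2 ≤ p := hp.out.two_le
  have hodd : Nat.Coprime (2 ^ k) (2 ^ (p - 1) - 1) := by
    apply Nat.Coprime.pow_left
    rw [Nat.coprime_two_left]
    apply Nat.Even.sub_odd Nat.one_le_two_pow
    · exact (Nat.even_pow.2 ⟨even_two, by omega⟩)
    · exact odd_one
  by_cases h1 : 2 ^ (p - 1) - 1 = 1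
  · refine ⟨1, fun g hg => ?_⟩
    rw [h1, pow_one] at hg
    rw [hg]; simp
  · obtain ⟨j, hj⟩ := Nat.exists_mul_mod_eq_one_of_coprime hodd (by
      have : 2 ^ 1 ≤ 2 ^ (p - 1) := Nat.pow_le_pow_right (by norm_num) (by omega)
      omega)
    refine ⟨j, fun g hg => ?_⟩
    rw [← pow_mul]
    conv_rhs => rw [← pow_one g]
    rw [pow_eq_pow_iff_modEq]
    have : 2 ^ k * j ≡ 1 [MOD (2 ^ (p - 1) - 1)] := by
      rw [Nat.ModEq, hj.2]
      exact (Nat.mod_eq_of_lt (by
        have : 2 ^ 1 ≤ 2 ^ (p - 1) := Nat.pow_le_pow_right (by norm_num) (by omega)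
        omega)).symm
    exact this.of_dvd (orderOf_dvd_of_pow_eq_one hg)

omit h in
theorem z_zero : z (p := p) T Z 0 = Z := by simp [z]

theorem z_add (i j : ZMod p) : T ^ i.val * z T Z j * (T ^ i.val)⁻¹ = z T Z (i + j) := by
  unfold z
  have h1 : T ^ (i + j).val = T ^ i.val * T ^ j.val := by
    rw [← pow_add]
    apply h.T_congr
    rw [Nat.cast_add, ZMod.natCast_val, ZMod.natCast_val, ZMod.natCast_val, ZMod.cast_id', id, id, id]
  rw [h1, mul_inv_rev]; group

theorem W_z (k : ℕ) : W ^ k * (T * Z * T⁻¹) * (W ^ k)⁻¹ = z T Z ((r : ZMod p) ^ k) ^ (2 ^ k) := by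
  unfold z
  rw [conj_pow, ← h.W_pow_Z k, ← h.W_pow_T k]
  group

theorem z_odd (i : ZMod p) : z T Z i ^ (2 ^ (p - 1) - 1) = 1 := by
  unfold z
  rw [conj_pow, h.Z_odd]; group

theorem exists_pow {x : ZMod p} (hx : x ≠ 0) : ∃ k : ℕ, (r : ZMod p) ^ k = x := by
  obtain ⟨k, hk⟩ := (mem_powers_iff_mem_zpowers).2 (h.gen (Units.mk0 x hx))
  refine ⟨k, ?_⟩
  have := congrArg Units.val hk
  simpa using this

theorem comm_one : Commute (Z ^ 3) (T * Z * T⁻¹) := by
  have h1 : Commute (Z ^ 3) Z := (Commute.refl Z).pow_left 3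
  have h2 : Commute (Z ^ 3) (Z * (T * Z * T⁻¹)) := by
    rw [h.four]; exact (Commute.refl _).pow_left 2
  have := h1.inv_right.mul_right h2
  rwa [inv_mul_cancel_left] at this

theorem comm_all (x : ZMod p) : Commute (Z ^ 3) (z T Z x) := by
  by_cases hx : x = 0
  · subst hx
    rw [z_zero]
    exact (Commute.refl Z).pow_left 3
  · obtain ⟨k, rfl⟩ := h.exists_pow hx
    have h1 := commute_conj (W ^ k) h.comm_one
    rw [h.W_z, ← conj_pow, h.W_pow_Z, ← pow_mul, mul_comm, pow_mul] at h1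
    obtain ⟨j, hj⟩ := exists_root (p := p) (Γ := Γ) k
    have h2 := (h1.pow_left j).pow_right j
    rw [hj _ (by rw [← pow_mul, mul_comm, pow_mul, h.Z_odd, one_pow]), hj _ (h.z_odd _)] at h2
    exact h2

theorem closure_eq : Subgroup.closure (Set.range (z (p := p) T Z)) = ⊤ := by
  set N := Subgroup.closure (Set.range (z (p := p) T Z)) with hN
  have hZ : Z ∈ N := Subgroup.subset_closure ⟨0, z_zero⟩
  have hTn : T ∈ Subgroup.normalizer N := by
    rw [Subgroup.mem_normalizer_iff]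
    have hstep : ∀ i : ZMod p, T * z T Z i * T⁻¹ = z T Z (1 + i) := by
      intro i
      rw [← h.z_add]
      have : T ^ (1 : ZMod p).val = T := by
        conv_rhs => rw [← pow_one T]
        apply h.T_congr
        simp
      rw [this]
    have h1 : N.map (MulAut.conj T).toMonoidHom = N := by
      rw [hN, MonoidHom.map_closure]
      congr 1
      ext g
      constructor
      · rintro ⟨_, ⟨i, rfl⟩, rfl⟩
        exact ⟨1 + i, (hstep i).symm⟩
      · rintro ⟨i, rfl⟩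
        refine ⟨z T Z (i - 1), ⟨i - 1, rfl⟩, ?_⟩
        have := hstep (i - 1)
        rw [add_sub_cancel] at this
        exact this
    intro g
    constructor
    · intro hg
      have : T * g * T⁻¹ ∈ N.map (MulAut.conj T).toMonoidHom := ⟨g, hg, rfl⟩
      rwa [h1] at this
    · intro hg
      rw [← h1] at hg
      obtain ⟨g', hg', e⟩ := hg
      have : g' = g := (MulAut.conj T).injective e
      rwa [← this]
  have hnt : Subgroup.normalizer (N : Set Γ) = ⊤ := by
    rw [eq_top_iff, ← h.top, Subgroup.closure_le]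
    rintro g (rfl | hg)
    · exact hTn
    · rw [Set.mem_singleton_iff] at hg
      subst hg
      exact Subgroup.le_normalizer hZ
  have hnorm : N.Normal := Subgroup.normalizer_eq_top_iff.1 hnt
  have hW : W ∈ N := by
    have : Subgroup.normalClosure {Z} ≤ N :=
      Subgroup.normalClosure_le_normal (Set.singleton_subset_iff.2 hZ)
    exact this h.mem
  have hT : T ∈ N := by
    have h1 : T ^ ((r : ZMod p)).val * T⁻¹ ∈ N := by
      rw [← h.W_T]
      have h2 := hnorm.conj_mem W⁻¹ (inv_mem hW) T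
      have h3 : W * T * W⁻¹ * T⁻¹ = W * (T * W⁻¹ * T⁻¹) := by group
      rw [h3]
      exact mul_mem hW h2
    have h4 : T = (T ^ ((r : ZMod p)).val * T⁻¹) ^ ((r : ZMod p) - 1)⁻¹.val := by
      have h5 : T⁻¹ = T ^ ((-1 : ZMod p)).val := by
        rw [inv_eq_iff_mul_eq_one, ← pow_succ']
        have : T ^ ((-1 : ZMod p).val + 1) = T ^ 0 := by
          apply h.T_congr
          rw [Nat.cast_add, ZMod.natCast_val, ZMod.cast_id', id]; simp
        rw [this, pow_zero]
      rw [h5, ← pow_add, ← pow_mul]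
      conv_lhs => rw [← pow_one T]
      apply h.T_congr
      rw [Nat.cast_mul, Nat.cast_add, ZMod.natCast_val, ZMod.natCast_val, ZMod.natCast_val, ZMod.cast_id', id, id, id,
        Nat.cast_one]
      have h6 : (r : ZMod p) - 1 ≠ 0 := by
        intro h7
        have h8 := h.hs
        rw [← neg_sub, h7] at h8
        simp at h8
      rw [← sub_eq_add_neg, mul_inv_cancel₀ h6]
    rw [h4]
    exact pow_mem h1 _
  rw [eq_top_iff, ← h.top, Subgroup.closure_le]
  rintro g (rfl | hg)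
  · exact hT
  · rw [Set.mem_singleton_iff] at hg
    subst hg
    exact hZ

theorem Z_cube : Z ^ 3 = 1 := by
  have h1 : ∀ g : Γ, Commute (Z ^ 3) g := by
    intro g
    have hg : g ∈ Subgroup.closure (Set.range (z (p := p) T Z)) := by
      rw [h.closure_eq]; exact Subgroup.mem_top _
    induction hg using Subgroup.closure_induction with
    | mem x hx => obtain ⟨i, rfl⟩ := hx; exact h.comm_all i
    | one => exact Commute.one_right _
    | mul x y _ _ hx hy => exact hx.mul_right hy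
    | inv x _ hx => exact hx.inv_right
  have h2 : W * Z ^ 3 * W⁻¹ = (Z ^ 3) ^ 2 := by
    rw [← conj_pow, h.three, ← pow_mul, ← pow_mul]
  rw [← (h1 W).eq, mul_inv_cancel_right] at h2
  rw [pow_two] at h2
  exact left_eq_mul.1 h2

theorem pair_zero {x : ZMod p} (hx : x ≠ 0) : (Z * z T Z x) ^ 2 = 1 := by
  obtain ⟨k, rfl⟩ := h.exists_pow hx
  have h1 : (Z * (T * Z * T⁻¹)) ^ 2 = 1 := by rw [← h.four, h.Z_cube]
  have h2 := sq_conj (W ^ k) Z (T * Z * T⁻¹)
  rw [h1, h.W_z, h.W_pow_Z, mul_one, mul_inv_cancel] at h2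
  have h4 : z T Z ((r : ZMod p) ^ k) ^ 3 = 1 := by
    unfold z
    rw [conj_pow, h.Z_cube]; group
  rw [pow_two_pow h.Z_cube, pow_two_pow h4] at h2
  exact sq_e _ h2

theorem pair {i j : ZMod p} (hij : i ≠ j) : (z T Z i * z T Z j) ^ 2 = 1 := by
  have h1 := h.pair_zero (sub_ne_zero.2 hij.symm)
  have h2 := sq_conj (T ^ i.val) (z T Z (0 : ZMod p)) (z T Z (j - i))
  rw [h.z_add, h.z_add, add_zero, add_sub_cancel, z_zero (p := p), h1] at h2
  rw [h2]; group

theorem cube (i : ZMod p) : z T Z i ^ 3 = 1 := by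
  unfold z
  rw [conj_pow, h.Z_cube]; group

/-- **The homomorphism from the alternating group.** -/
theorem exists_hom : ∃ f : alternatingGroup (ZMod p ⊕ Bool) →* Γ, Function.Surjective f := by
  classical
  obtain ⟨f, hf⟩ := Cfsg.Agent.StdAlt.Carm.exists_hom (G := Γ) (Ω := ZMod p ⊕ Bool)
    (c := Sum.inr false) (d := Sum.inr true) (by simp) (by
      have := hp.out.two_le
      simp only [Fintype.card_sum, ZMod.card, Fintype.card_bool]
      omega)
    (y := Sum.elim (fun i : ZMod p => z T Z i) (fun _ => 1))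
    (by
      rintro (i | b) h1 h2
      · exact h.cube _
      · simp)
    (by
      rintro (i | b) (j | b') h1 h2 h3 h4 h5
      · exact h.pair (fun h => h5 (by rw [h]))
      · cases b' <;> simp at h3 h4
      · cases b <;> simp at h1 h2
      · cases b <;> simp at h1 h2)
  refine ⟨f, ?_⟩
  rw [← MonoidHom.range_eq_top, eq_top_iff, ← h.closure_eq, Subgroup.closure_le]
  rintro _ ⟨i, rfl⟩
  exact ⟨⟨cyc (Sum.inl i) (Sum.inr false) (Sum.inr true),
    Cfsg.Agent.StdAlt.PermTypes.cyc_mem_alt (by simp) (by simp)⟩, hf _ (Sum.inl i) (by simp) (by simp) rfl⟩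

end Rel

end Cfsg.Agent.H110.PrimeAbs
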